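import Groth.Agent.CohqA.ChowClosure
import Groth.Agent.Dual.H310.DomComp

/-!
# Dominating proper schemes by closures

* `exists_closure` (Ore): for `k : V ⟶ P` an immersion and `l : V ⟶ T` over `S`, `P`, `T` proper over `S`, the
  scheme-theoretic closure `Q` of `V` in `P ×_S T` is proper, contains `V` as a schematically dense open and maps
  to `P` and `T`;
* `ext_of_dense` (Eq): two morphisms from `Q` to a separated scheme agreeing on `V` are equal;
* `isPullback_of_dense` (Cart).
-/

set_option autoImplicit false

universe u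

open CategoryTheory CategoryTheory.Limits AlgebraicGeometry

namespace Groth.Agent.Dual.H358.Dom

variable {S P T V Q : Scheme.{u}}

/-- The closure of `V` in `P ×_S T`. -/
theorem exists_closure (p : P ⟶ S) (t : T ⟶ S) [IsProper p] [IsProper t] (k : V ⟶ P) [IsImmersion k]
    [QuasiCompact k] (l : V ⟶ T) (h : k ≫ p = l ≫ t) :
    ∃ (Q : Scheme.{u}) (j : V ⟶ Q) (q : Q ⟶ P) (r : Q ⟶ T), IsOpenImmersion j ∧ QuasiCompact j ∧
      IsSchemeTheoreticallyDominant j ∧ IsDominant j ∧ IsProper q ∧ IsProper r ∧
      j ≫ q = k ∧ j ≫ r = l ∧ q ≫ p = r ≫ t := by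
  let i : V ⟶ pullback p t := pullback.lift k l h
  have hi1 : i ≫ pullback.fst p t = k := pullback.lift_fst _ _ _
  have hi2 : i ≫ pullback.snd p t = l := pullback.lift_snd _ _ _
  have : IsImmersion (i ≫ pullback.fst p t) := by rw [hi1]; infer_instance
  have hii : IsImmersion i := IsImmersion.of_comp i (pullback.fst p t)
  have : QuasiCompact (i ≫ pullback.fst p t) := by rw [hi1]; infer_instance
  have : QuasiCompact i := QuasiCompact.of_comp i (pullback.fst p t)
  have hd : IsSchemeTheoreticallyDominant i.toImage :=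
    CohqA.ChowClosure.isSchemeTheoreticallyDominant_toImage i
  have hq : QuasiCompact (i.toImage ≫ i.imageι) := by rw [Scheme.Hom.toImage_imageι]; infer_instance
  have hqc : QuasiCompact i.toImage := QuasiCompact.of_comp i.toImage i.imageι
  refine ⟨i.image, i.toImage, i.imageι ≫ pullback.fst p t, i.imageι ≫ pullback.snd p t, inferInstance,
    hqc, hd, inferInstance, inferInstance, inferInstance, ?_, ?_, ?_⟩
  · rw [Scheme.Hom.toImage_imageι_assoc, hi1]
  · rw [Scheme.Hom.toImage_imageι_assoc, hi2]
  · rw [Category.assoc, Category.assoc, pullback.condition]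

/-- Two morphisms to a separated scheme agreeing on a schematically dense open are equal. -/
theorem ext_of_dense (j : V ⟶ Q) [IsSchemeTheoreticallyDominant j] (t : T ⟶ S) [IsSeparated t] {a b : Q ⟶ T}
    (h : a ≫ t = b ≫ t) (h' : j ≫ a = j ≫ b) : a = b :=
  CohqA.ChowClosure.ext_of_isSchemeTheoreticallyDominant t h j h'

/-- Over a dense open nothing changes. -/
theorem isPullback_of_dense (k' : V ⟶ Q) [IsOpenImmersion k'] [IsDominant k'] (g : Q ⟶ P) [IsSeparated g]
    [IsOpenImmersion (k' ≫ g)] : IsPullback k' (𝟙 V) g (k' ≫ g) :=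
  Groth.Agent.Dual.H310.DomComp.isPullback_of_isDominant k' (k' ≫ g) g rfl

/-- Schematically dense and quasi-compact implies dense. -/
theorem isDominant_of_dense (j : V ⟶ Q) [QuasiCompact j] [IsSchemeTheoreticallyDominant j] :
    IsDominant j := inferInstance

end Groth.Agent.Dual.H358.Dom
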