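import Groth.Agent.LoccohB.AdStruct

/-!
# Universal pairs at the level of functors

`FUniv f F G` (`F : C ⥤ D(O_Y)`, `G : C ⥤ D(O_X)`): there is a natural transformation
`τ : G ⋙ Rf_* ⟶ F` every component of which is universal (`Ega1.ADualUniv.IsUniv`).
* `isUniv_restrict_push`, `isUniv_restrict`: restriction of universal morphisms to opens of the target, with the
  explicit morphism `ρ⁻¹ ≫ j^* τ`, for any isomorphism `ρ : Rf_* ⋙ j^* ≅ j'^* ⋙ Rf'_*`;
* `FUniv.unique`, `FUniv.comp'`, `FUniv.id`, `FUniv.restrict`, `exists_funiv`, `funiv_of_adj`;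
* `FUniv.structure`: functor-level local structure of the right adjoint of `Rf_*`, `f` proper.
-/

set_option autoImplicit false
set_option linter.dupNamespace false

universe w w' w₁ w₁' u

open CategoryTheory CategoryTheory.Limits AlgebraicGeometry Pretriangulated

attribute [local instance] HasDerivedCategory.standard

namespace Groth.Agent.Dual.H358.FUniv

open Groth.Agent.Dcoh.DerSch Groth.Agent.Ega1.ADualUniv Groth.Agent.LoccohB
open Groth.Agent.Ega1.ADualRestrict Groth.Agent.Ega1.ADualOpen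
open Groth.Agent.PerfA.Restrict (restrictD)
open Groth.Agent.PerfB.OpenAdj (openAdj)
open Groth.Agent.PerfA.PerfLocal (restrictDComp restrictDCongr)
open Groth.Agent.LoccohB.AdStruct (restrictDId exists_isGE isNoetherian_of_finiteType)

variable {X Y Z U V : Scheme.{u}}

section Explicit

variable {f : X ⟶ Y} {f' : U ⟶ V} {j' : U ⟶ X} {j : V ⟶ Y} [IsOpenImmersion j'] [IsOpenImmersion j]
  [DCoh.HasRpush f] [DCoh.HasRpush f'] [DCoh.HasRpush j]

/-- If `τ : Rf_* L ⟶ Rj_* M` is universal, then so is `Rf'_* j'^* L ≅ j^* Rf_* L ⟶ j^* Rj_* M ⟶ M`, for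
any isomorphism of functors `β : Rf_* ⋙ j^* ≅ j'^* ⋙ Rf'_*`. -/
theorem isUniv_restrict_push [QuasiCompact j'] (β : DCoh.Rpush f ⋙ restrictD j ≅ restrictD j' ⋙ DCoh.Rpush f')
    {M : DCoh.D V} {L : DCoh.D X} {τ : (DCoh.Rpush f).obj L ⟶ (DCoh.Rpush j).obj M}
    (hτ : IsUniv f ((DCoh.Rpush j).obj M) L τ) :
    IsUniv f' M ((restrictD j').obj L)
      (β.inv.app L ≫ ((openAdj j).homEquiv _ _).symm τ) := by
  have : DCoh.HasRpush j' := hasRpush _
  -- `L` is `j'`-local
  have hu : IsIso ((openAdj j').unit.app L) := by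
    refine isIso_unit_of_orthogonal j' L hτ.qcoh (fun N hN hN0 φ => ?_)
    have h1 : IsZero ((restrictD j).obj ((DCoh.Rpush f).obj N)) := by
      refine IsZero.of_iso ?_ (β.app N)
      have : (DCoh.Rpush f').PreservesZeroMorphisms := by
        obtain ⟨_, _, -⟩ := RpushTri.exists_isTriangulated_Rpush f'
        infer_instance
      exact (DCoh.Rpush f').map_isZero hN0
    apply hτ.hom_ext hN
    apply ((openAdj j).homEquiv _ _).symm.injective
    exact h1.eq_of_src _ _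
  -- the universal morphism
  let flat : ∀ N : DCoh.D X, ((DCoh.Rpush f).obj N ⟶ (DCoh.Rpush j).obj M) →
      ((DCoh.Rpush f').obj ((restrictD j').obj N) ⟶ M) := fun N g =>
    β.inv.app N ≫ ((openAdj j).homEquiv _ _).symm g
  have hflat : ∀ N, Function.Bijective (flat N) := fun N =>
    ((β.app N).homFromEquiv (Z := M)).bijective.comp ((openAdj j).homEquiv _ _).symm.bijective
  refine ⟨PerfA.QCohD.isQCohD_restrictD j' hτ.qcoh, ?_⟩
  -- naturality
  have nat : ∀ (N : DCoh.D X) (u : N ⟶ L),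
      (DCoh.Rpush f').map ((restrictD j').map u) ≫ flat L τ =
        flat N ((DCoh.Rpush f).map u ≫ τ) := by
    intro N u
    dsimp only [flat]
    rw [Adjunction.homEquiv_naturality_left_symm]
    have := β.inv.naturality u
    dsimp only [Functor.comp_map] at this
    rw [reassoc_of% this]
  -- bijectivity for objects of the form `j'^* N`
  have key : ∀ N : DCoh.D X, DCoh.IsQCohD N →
      Function.Bijective (fun g : (restrictD j').obj N ⟶ (restrictD j').obj L =>
        (DCoh.Rpush f').map g ≫ flat L τ) := by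
    intro N hN
    have h1 : Function.Bijective (fun u : N ⟶ L => (restrictD j').map u) := by
      have h2 : Function.Bijective (fun u : N ⟶ L => u ≫ (openAdj j').unit.app L) :=
        ((asIso ((openAdj j').unit.app L)).homToEquiv (Z := N)).bijective
      have h3 := ((openAdj j').homEquiv N ((restrictD j').obj L)).symm.bijective
      convert h3.comp h2 using 1
      funext u
      simp only [Function.comp_apply]
      rw [Adjunction.homEquiv_naturality_left_symm]
      simp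
    have h4 := (hflat N).comp (hτ.bij N hN)
    have h5 : (fun g : (restrictD j').obj N ⟶ (restrictD j').obj L =>
        (DCoh.Rpush f').map g ≫ flat L τ) ∘ (fun u : N ⟶ L => (restrictD j').map u) =
        (flat N) ∘ (fun g : N ⟶ L => (DCoh.Rpush f).map g ≫ τ) := by
      funext u
      exact nat N u
    rw [← h5] at h4
    exact (Function.Bijective.of_comp_iff _ h1).1 h4
  intro N hN
  -- `N ≅ j'^* Rj'_* N`
  let N' := (DCoh.Rpush j').obj N
  have hN' : DCoh.IsQCohD N' := S0998.result j' _ hN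
  let e : (restrictD j').obj N' ≅ N := asIso ((openAdj j').counit.app N)
  have h1 := key N' hN'
  have h2 : Function.Bijective (fun g : N ⟶ (restrictD j').obj L => e.hom ≫ g) :=
    (e.symm.homFromEquiv (Z := (restrictD j').obj L)).bijective
  have h3 : Function.Bijective (fun g : (DCoh.Rpush f').obj ((restrictD j').obj N') ⟶ M =>
      (DCoh.Rpush f').map e.inv ≫ g) :=
    (((DCoh.Rpush f').mapIso e).homFromEquiv (Z := M)).bijective
  convert h3.comp (h1.comp h2) using 1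
  funext g
  simp [flat]

omit [DCoh.HasRpush j] in
/-- **Open restriction of universal morphisms, explicit form** (`f` proper, `K` bounded below): if
`τ : Rf_* L ⟶ K` is universal then so is `Rf'_* j'^* L ≅ j^* Rf_* L ⟶ j^* K`, for any isomorphism of functors
`β : Rf_* ⋙ j^* ≅ j'^* ⋙ Rf'_*`. -/
theorem isUniv_restrict [IsNoetherian Y] [IsProper f] (hp : IsPullback j' f' f j)
    (β : DCoh.Rpush f ⋙ restrictD j ≅ restrictD j' ⋙ DCoh.Rpush f')
    {K : DCoh.D Y} (hK : DCoh.IsQCohD K) (c : ℤ) (hKc : K.IsGE c)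
    {L : DCoh.D X} {τ : (DCoh.Rpush f).obj L ⟶ K} (h : IsUniv f K L τ) :
    IsUniv f' ((restrictD j).obj K) ((restrictD j').obj L) (β.inv.app L ≫ (restrictD j).map τ) := by
  have : IsNoetherian X := by
    have : CompactSpace X := QuasiCompact.compactSpace_of_compactSpace f
    have : IsLocallyNoetherian X := LocallyOfFiniteType.isLocallyNoetherian f
    constructor
  have : DCoh.HasRpush j := hasRpush j
  have hf : ∀ N : DCoh.D X, DCoh.IsQCohD N → DCoh.IsQCohD ((DCoh.Rpush f).obj N) :=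
    fun N hN => S0998.result f N hN
  have := S1766.result X Y f hf
  set F : DCoh.DQCoh X ⥤ DCoh.DQCoh Y := ObjectProperty.lift DCoh.IsQCohD
    (ObjectProperty.ι DCoh.IsQCohD ⋙ DCoh.Rpush f) (fun K => hf K.obj K.property) with hF
  let a := F.rightAdjoint
  let adj : F ⊣ a := Adjunction.ofIsLeftAdjoint F
  let K₀ : DCoh.DQCoh Y := ⟨K, hK⟩
  have hK' : DCoh.IsQCohD ((DCoh.Rpush j).obj ((restrictD j).obj K)) :=
    S0998.result j _ (PerfA.QCohD.isQCohD_restrictD j hK)
  let K₁ : DCoh.DQCoh Y := ⟨_, hK'⟩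
  let φ : K₀ ⟶ K₁ := ObjectProperty.homMk ((openAdj j).unit.app K)
  have hi : IsIso ((restrictD j').map ((a.map φ).hom)) := by
    obtain ⟨_, _, -⟩ := RpushTri.exists_isTriangulated_Rpush f
    refine isIso_map_rightAdjoint_aux adj ((DCoh.IsQCohD (X := X)).ι ⋙ restrictD j') φ ?_
    intro Q ψ δ hT
    have hT' : Triangle.mk ψ.hom ((openAdj j).unit.app K)
        (δ.hom ≫ ((DCoh.IsQCohD (X := Y)).ι.commShiftIso (1 : ℤ)).hom.app Q) ∈
        distTriang (DCoh.D Y) :=
      (DCoh.IsQCohD (X := Y)).ι.map_distinguished _ hT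
    have hQ : Q.obj.IsGE c := isGE_obj₁ hT' c hKc
      (by
        have : ((restrictD j).obj K).IsGE c := PerfA.ExactD.isGE_map _ _ _
        exact PerfC.RpushTrunc.isGE_Rpush j _ c)
    have hQV : IsZero ((restrictD j).obj Q.obj) :=
      (Triangle.isZero₁_iff_isIso₂ _ ((restrictD j).map_distinguished _ hT')).2
        (PerfB.OpenAdj.isIso_restrictD_map_unit j K)
    have hV : Set.range j = Set.range j.opensRange.ι := by
      rw [Scheme.Opens.range_ι]; rfl
    have h1 := S1768.result X Y f hf a adj j.opensRange (by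
        have := TopologicalSpace.NoetherianSpace.isCompact ((j.opensRange : Set Y))
        exact this) Q c
      (fun i hi => DerivedCategory.isZero_of_isGE Q.obj c i hi)
      (fun i => isZero_restrict_of_range hV.ge ((isZero_restrictD_iff _ _).1 hQV i))
    exact (isZero_restrictD_iff _ _).2 fun i => isZero_restrict_of_range (by
      rintro _ ⟨y, rfl⟩
      rw [Scheme.Opens.range_ι]
      exact ⟨f' y, by rw [← Scheme.Hom.comp_apply, ← hp.w]; rfl⟩) (h1 i)
  have h1 : IsUniv f K (a.obj K₀).obj (adj.counit.app K₀).hom := isUniv_of_adj (a := a) adj K₀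
  have h2 : IsUniv f K₁.obj (a.obj K₁).obj (adj.counit.app K₁).hom := isUniv_of_adj (a := a) adj K₁
  have hnat : (DCoh.Rpush f).map (a.map φ).hom ≫ (adj.counit.app K₁).hom =
      (adj.counit.app K₀).hom ≫ (openAdj j).unit.app K :=
    congrArg InducedCategory.Hom.hom (adj.counit.naturality φ)
  obtain ⟨e, he, -⟩ := h.exists_iso h1
  have h3 := isUniv_restrict_push β h2
  let ea : (restrictD j').obj (a.obj K₀).obj ≅ (restrictD j').obj (a.obj K₁).obj :=
    asIso ((restrictD j').map ((a.map φ).hom))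
  have h4 := h3.of_iso (ea.symm ≪≫ (restrictD j').mapIso e.symm) (Iso.refl _)
    (PerfA.QCohD.isQCohD_restrictD j' h.qcoh)
  convert h4 using 1
  have hβ := β.inv.naturality (e.hom ≫ (a.map φ).hom)
  dsimp only [Functor.comp_map] at hβ
  have hea : ((ea.symm ≪≫ (restrictD j').mapIso e.symm).inv) =
      (restrictD j').map (e.hom ≫ (a.map φ).hom) := by
    simp [ea]
  rw [hea, Iso.refl_hom, Category.comp_id, reassoc_of% hβ,
    ← Adjunction.homEquiv_naturality_left_symm, Functor.map_comp, Category.assoc, hnat,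
    reassoc_of% he, Adjunction.homEquiv_naturality_left_symm]
  simp

end Explicit

section FunctorLevel

variable {C : Type w} [Category.{w'} C] {C' : Type w₁} [Category.{w₁'} C']

/-- `G` is a functorial universal object: there is a natural transformation `τ : G ⋙ Rf_* ⟶ F` all of whose
components are universal (`G` represents `N ↦ Hom(Rf_* N, F -)` on `D_QCoh(O_X)`, naturally). -/
def FUniv (f : X ⟶ Y) [DCoh.HasRpush f] (F : C ⥤ DCoh.D Y) (G : C ⥤ DCoh.D X) : Prop :=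
  ∃ τ : G ⋙ DCoh.Rpush f ⟶ F, ∀ c, IsUniv f (F.obj c) (G.obj c) (τ.app c)

variable {f : X ⟶ Y} [DCoh.HasRpush f] {F F' : C ⥤ DCoh.D Y} {G G' : C ⥤ DCoh.D X}

lemma FUniv.univ (h : FUniv f F G) (c : C) : Univ f (F.obj c) (G.obj c) := by
  obtain ⟨τ, hτ⟩ := h
  exact ⟨_, hτ c⟩

lemma FUniv.qcoh (h : FUniv f F G) (c : C) : DCoh.IsQCohD (G.obj c) := (h.univ c).qcoh

/-- Functorial universal objects are unique up to isomorphism of functors. -/
theorem FUniv.unique (h : FUniv f F G) (h' : FUniv f F G') : Nonempty (G ≅ G') := by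
  obtain ⟨τ, hτ⟩ := h
  obtain ⟨τ', hτ'⟩ := h'
  choose e he he' using fun c => (hτ c).exists_iso (hτ' c)
  refine ⟨NatIso.ofComponents e fun {c d} φ => ?_⟩
  apply (hτ' d).hom_ext (hτ c).qcoh
  have h1 := τ.naturality φ
  have h2 := τ'.naturality φ
  dsimp only [Functor.comp_map] at h1 h2
  rw [Functor.map_comp, Functor.map_comp, Category.assoc, Category.assoc, he, h1, h2,
    reassoc_of% he]

lemma FUniv.whisker (h : FUniv f F G) (H : C' ⥤ C) : FUniv f (H ⋙ F) (H ⋙ G) := by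
  obtain ⟨τ, hτ⟩ := h
  exact ⟨Functor.whiskerLeft H τ, fun c => hτ (H.obj c)⟩

lemma FUniv.of_iso_left (h : FUniv f F G) (e : G ≅ G') : FUniv f F G' := by
  obtain ⟨τ, hτ⟩ := h
  refine ⟨Functor.whiskerRight e.inv _ ≫ τ, fun c => ?_⟩
  have h1 := (hτ c).of_iso (e.app c) (Iso.refl _)
    ((DCoh.IsQCohD (X := X)).prop_of_iso (e.app c) (hτ c).qcoh)
  simpa using h1

lemma FUniv.of_iso_right (h : FUniv f F G) (e : F ≅ F') : FUniv f F' G := by
  obtain ⟨τ, hτ⟩ := h
  refine ⟨τ ≫ e.hom, fun c => ?_⟩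
  have h1 := (hτ c).of_iso (Iso.refl _) (e.app c) (hτ c).qcoh
  simpa using h1

lemma FUniv.of_eq {f' : X ⟶ Y} [DCoh.HasRpush f'] (h : FUniv f F G) (e : f = f') : FUniv f' F G := by
  subst e
  exact h

/-- Composition of functorial universal objects. -/
theorem FUniv.comp' (p : X ⟶ Y) (f : Y ⟶ Z) [DCoh.HasRpush p] [DCoh.HasRpush f]
    [DCoh.HasRpush (p ≫ f)] [QuasiCompact p] [QuasiSeparated p] {W : C ⥤ DCoh.D Z} {K : C ⥤ DCoh.D Y}
    {L : C ⥤ DCoh.D X} (h₁ : FUniv f W K) (h₂ : FUniv p K L) : FUniv (p ≫ f) W L := by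
  obtain ⟨θ⟩ := S0922.result p f
  obtain ⟨σ, h₁⟩ := h₁
  obtain ⟨τ, h₂⟩ := h₂
  refine ⟨Functor.whiskerLeft L θ.inv ≫ Functor.whiskerRight τ (DCoh.Rpush f) ≫ σ, fun c => ?_⟩
  refine ⟨(h₂ c).qcoh, fun N hN => ?_⟩
  have e2 := (h₂ c).bij N hN
  have e1 := (h₁ c).bij _ (S0998.result p N hN)
  have e3 : Function.Bijective (fun g' : (DCoh.Rpush f).obj ((DCoh.Rpush p).obj N) ⟶ W.obj c =>
      θ.inv.app N ≫ g') := ((θ.app N).homFromEquiv (Z := W.obj c)).bijective
  convert e3.comp (e1.comp e2) using 1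
  funext u
  have := θ.inv.naturality u
  simp only [Function.comp_apply, Functor.comp_map, NatTrans.comp_app, Functor.whiskerLeft_app,
    Functor.whiskerRight_app] at this ⊢
  rw [reassoc_of% this, Functor.map_comp, Category.assoc]

/-- The identity. -/
theorem FUniv.id [DCoh.HasRpush (𝟙 X)] {K : C ⥤ DCoh.D X} (hK : ∀ c, DCoh.IsQCohD (K.obj c)) :
    FUniv (𝟙 X) K K := by
  let θ : 𝟭 (DCoh.D X) ≅ DCoh.Rpush (𝟙 X) :=
    (Adjunction.id.ofNatIsoLeft (restrictDId X).symm).rightAdjointUniq (openAdj (𝟙 X))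
  refine ⟨Functor.whiskerLeft K θ.inv ≫ (Functor.rightUnitor K).hom, fun c => ⟨hK c, fun N _ => ?_⟩⟩
  have h1 : (fun g : N ⟶ K.obj c => (DCoh.Rpush (𝟙 X)).map g ≫
      (Functor.whiskerLeft K θ.inv ≫ (Functor.rightUnitor K).hom).app c) =
      ((θ.app N).homFromEquiv (Z := K.obj c)) := by
    funext g
    have := θ.inv.naturality g
    dsimp only [Functor.id_map] at this
    simpa using this
  rw [h1]
  exact Equiv.bijective _

/-- Values of a right adjoint of `Rf_*` on `D_QCoh`. -/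
theorem funiv_of_adj
    {h : ∀ K : DCoh.D X, DCoh.IsQCohD K → DCoh.IsQCohD ((DCoh.Rpush f).obj K)}
    {a : DCoh.DQCoh Y ⥤ DCoh.DQCoh X}
    (adj : (ObjectProperty.lift DCoh.IsQCohD (ObjectProperty.ι DCoh.IsQCohD ⋙ DCoh.Rpush f)
      (fun K => h K.obj K.property)) ⊣ a) (H : C ⥤ DCoh.DQCoh Y) :
    FUniv f (H ⋙ ObjectProperty.ι DCoh.IsQCohD) (H ⋙ a ⋙ ObjectProperty.ι DCoh.IsQCohD) := by
  refine ⟨Functor.whiskerLeft H (Functor.whiskerRight adj.counit (ObjectProperty.ι _)), fun c => ?_⟩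
  exact isUniv_of_adj adj (H.obj c)

variable (f) in
/-- Existence. -/
theorem exists_funiv [CompactSpace X] [QuasiSeparatedSpace X] [CompactSpace Y]
    [QuasiSeparatedSpace Y] (F : C ⥤ DCoh.D Y) (hF : ∀ c, DCoh.IsQCohD (F.obj c)) :
    ∃ G : C ⥤ DCoh.D X, FUniv f F G := by
  have hf : ∀ N : DCoh.D X, DCoh.IsQCohD N → DCoh.IsQCohD ((DCoh.Rpush f).obj N) :=
    fun N hN => S0998.result f N hN
  have := S1766.result X Y f hf
  exact ⟨_, funiv_of_adj (Adjunction.ofIsLeftAdjoint (ObjectProperty.lift DCoh.IsQCohD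
    (ObjectProperty.ι DCoh.IsQCohD ⋙ DCoh.Rpush f) (fun K => hf K.obj K.property)))
    (ObjectProperty.lift DCoh.IsQCohD F hF)⟩

/-- Open restriction of functorial universal objects (`f` proper, bounded below). -/
theorem FUniv.restrict [IsNoetherian Y] (f : X ⟶ Y) [IsProper f] [DCoh.HasRpush f] {f' : U ⟶ V}
    [DCoh.HasRpush f'] {j' : U ⟶ X} {j : V ⟶ Y} [IsOpenImmersion j'] [IsOpenImmersion j]
    (hp : IsPullback j' f' f j) {F : C ⥤ DCoh.D Y} {G : C ⥤ DCoh.D X}
    (hF : ∀ c, DCoh.IsQCohD (F.obj c)) (hF' : ∀ c, ∃ n : ℤ, (F.obj c).IsGE n)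
    (h : FUniv f F G) : FUniv f' (F ⋙ restrictD j) (G ⋙ restrictD j') := by
  obtain ⟨β⟩ := exists_rpushRestrictIso f f' j' j hp
  obtain ⟨τ, hτ⟩ := h
  refine ⟨Functor.whiskerLeft G β.inv ≫ Functor.whiskerRight τ (restrictD j), fun c => ?_⟩
  obtain ⟨n, hn⟩ := hF' c
  exact isUniv_restrict hp β (hF c) n hn (hτ c)

lemma FUniv.exists_isGE [CompactSpace X] [QuasiSeparatedSpace X] [CompactSpace Y]
    [QuasiSeparatedSpace Y] (h : FUniv f F G) (hF : ∀ c, DCoh.IsQCohD (F.obj c))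
    (hF' : ∀ c, ∃ n : ℤ, (F.obj c).IsGE n) (c : C) : ∃ n : ℤ, (G.obj c).IsGE n := by
  obtain ⟨n, hn⟩ := hF' c
  exact AdStruct.exists_isGE f (h.univ c) (hF c) n hn

end FunctorLevel

section Structure

variable {C : Type w} [Category.{w'} C]

/-- **Sections.**  Let `p : Z ⟶ X` be proper, `T = p^! M` (functorially), `j : U ⟶ X` and `k : W ⟶ Z` open immersions and
`s : U ⟶ W` a closed immersion over `X`.  Then `M|_U` is the universal object for `s` and `T|_W`. -/
theorem funiv_section [IsNoetherian X] (p : Z ⟶ X) [IsProper p] [DCoh.HasRpush p] (j : U ⟶ X)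
    [IsOpenImmersion j] {W : Scheme.{u}} (k : W ⟶ Z) [IsOpenImmersion k] (s : U ⟶ W)
    [IsClosedImmersion s] [DCoh.HasRpush s] (hs : s ≫ k ≫ p = j)
    {M : C ⥤ DCoh.D X} (hM : ∀ c, DCoh.IsQCohD (M.obj c)) (hM' : ∀ c, ∃ n : ℤ, (M.obj c).IsGE n)
    {T : C ⥤ DCoh.D Z} (hT : FUniv p M T) :
    FUniv s (T ⋙ restrictD k) (M ⋙ restrictD j) := by
  have hZ : IsNoetherian Z := isNoetherian_of_finiteType p
  have hT' : ∀ c, ∃ n : ℤ, (T.obj c).IsGE n := hT.exists_isGE hM hM'
  have hU : IsNoetherian U := isNoetherian_of_finiteType j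
  have hW : IsNoetherian W := isNoetherian_of_finiteType k
  have hqM : ∀ c, DCoh.IsQCohD ((M ⋙ restrictD j).obj c) := fun c =>
    PerfA.QCohD.isQCohD_restrictD j (hM c)
  -- the preimage of `U`
  let W₁ := pullback p j
  let k₁ : W₁ ⟶ Z := pullback.fst p j
  let p₁ : W₁ ⟶ U := pullback.snd p j
  have sq₁ : IsPullback k₁ p₁ p j := IsPullback.of_hasPullback p j
  have := hasRpush p₁
  have h3 : FUniv p₁ (M ⋙ restrictD j) (T ⋙ restrictD k₁) := FUniv.restrict p sq₁ hM hM' hT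
  let s₁ : U ⟶ W₁ := pullback.lift (s ≫ k) (𝟙 U) (by rw [Category.id_comp, Category.assoc, hs])
  have hs₁ : s₁ ≫ k₁ = s ≫ k := pullback.lift_fst _ _ _
  have hs₁' : s₁ ≫ p₁ = 𝟙 U := pullback.lift_snd _ _ _
  have : IsClosedImmersion (s₁ ≫ p₁) := by rw [hs₁']; infer_instance
  have : IsClosedImmersion s₁ := IsClosedImmersion.of_comp s₁ p₁
  have := hasRpush s₁
  have := hasRpush (s₁ ≫ p₁)
  have := hasRpush (𝟙 U)
  have hW₁ : IsNoetherian W₁ := isNoetherian_of_finiteType k₁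
  have hq₁ : ∀ c, DCoh.IsQCohD ((T ⋙ restrictD k₁).obj c) := fun c =>
    PerfA.QCohD.isQCohD_restrictD k₁ (hT.qcoh c)
  have hc₁ : ∀ c, ∃ n : ℤ, ((T ⋙ restrictD k₁).obj c).IsGE n := fun c => by
    obtain ⟨n, hn⟩ := hT' c
    exact ⟨n, PerfA.ExactD.isGE_map _ _ _⟩
  obtain ⟨S₁, hS₁⟩ := exists_funiv s₁ _ hq₁
  obtain ⟨e₁⟩ := (FUniv.of_eq (FUniv.comp' s₁ p₁ h3 hS₁) hs₁').unique (FUniv.id hqM)
  -- the open `W`
  have hq₂ : ∀ c, DCoh.IsQCohD ((T ⋙ restrictD k).obj c) := fun c =>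
    PerfA.QCohD.isQCohD_restrictD k (hT.qcoh c)
  have hc₂ : ∀ c, ∃ n : ℤ, ((T ⋙ restrictD k).obj c).IsGE n := fun c => by
    obtain ⟨n, hn⟩ := hT' c
    exact ⟨n, PerfA.ExactD.isGE_map _ _ _⟩
  obtain ⟨S₂, hS₂⟩ := exists_funiv s _ hq₂
  -- comparison on the intersection
  let W₃ := pullback k₁ k
  let m₁ : W₃ ⟶ W₁ := pullback.fst k₁ k
  let m₂ : W₃ ⟶ W := pullback.snd k₁ k
  have hm : m₁ ≫ k₁ = m₂ ≫ k := pullback.condition
  let t : U ⟶ W₃ := pullback.lift s₁ s hs₁
  have ht₁ : t ≫ m₁ = s₁ := pullback.lift_fst _ _ _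
  have ht₂ : t ≫ m₂ = s := pullback.lift_snd _ _ _
  have := hasRpush t
  have sq₃ : IsPullback (𝟙 U) t s₁ m₁ :=
    IsPullback.of_horiz_isIso_mono ⟨by rw [Category.id_comp, ht₁]⟩
  have sq₄ : IsPullback (𝟙 U) t s m₂ :=
    IsPullback.of_horiz_isIso_mono ⟨by rw [Category.id_comp, ht₂]⟩
  have h6 := FUniv.restrict s₁ sq₃ hq₁ hc₁ hS₁
  have h7 := FUniv.restrict s sq₄ hq₂ hc₂ hS₂
  let eW : (T ⋙ restrictD k₁) ⋙ restrictD m₁ ≅ (T ⋙ restrictD k) ⋙ restrictD m₂ :=
    Functor.isoWhiskerLeft T (restrictDComp m₁ k₁ ≪≫ restrictDCongr hm ≪≫ (restrictDComp m₂ k).symm)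
  obtain ⟨e₂⟩ := (FUniv.of_iso_right h6 eW).unique h7
  exact hS₂.of_iso_left ((Functor.isoWhiskerLeft S₂ (restrictDId U)).symm ≪≫ e₂.symm ≪≫
    Functor.isoWhiskerLeft S₁ (restrictDId U) ≪≫ e₁)

variable {S P W : Scheme.{u}} [IsNoetherian S] (f : X ⟶ S) [IsProper f] (π : P ⟶ S) [IsProper π]
  (j : U ⟶ X) [IsOpenImmersion j] (l : W ⟶ P) [IsOpenImmersion l] (s : U ⟶ W) [IsClosedImmersion s]
  (hs : s ≫ l ≫ π = j ≫ f)

include hs in
/-- **Local structure of the right adjoint, functor level.** -/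
theorem FUniv.structure [DCoh.HasRpush f] [DCoh.HasRpush π] [DCoh.HasRpush s]
    {K : C ⥤ DCoh.D S} (hK : ∀ c, DCoh.IsQCohD (K.obj c)) (hK' : ∀ c, ∃ n : ℤ, (K.obj c).IsGE n)
    {M : C ⥤ DCoh.D X} (hM : FUniv f K M) {L : C ⥤ DCoh.D P} (hL : FUniv π K L) :
    FUniv s (L ⋙ restrictD l) (M ⋙ restrictD j) := by
  have hX : IsNoetherian X := isNoetherian_of_finiteType f
  have hP : IsNoetherian P := isNoetherian_of_finiteType π
  -- the product
  let Z := pullback f π
  let p : Z ⟶ X := pullback.fst f π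
  let q : Z ⟶ P := pullback.snd f π
  have hpq : p ≫ f = q ≫ π := pullback.condition
  have hZ : IsNoetherian Z := isNoetherian_of_finiteType p
  have := hasRpush p
  have := hasRpush q
  have := hasRpush (p ≫ f)
  have := hasRpush (q ≫ π)
  obtain ⟨T, hT⟩ := exists_funiv q L hL.qcoh
  obtain ⟨T', hT'⟩ := exists_funiv p M hM.qcoh
  obtain ⟨eT⟩ := (FUniv.of_eq (FUniv.comp' p f hM hT') hpq).unique (FUniv.comp' q π hL hT)
  have hT₁ : FUniv p M T := hT'.of_iso_left eT
  let z : U ⟶ Z := pullback.lift j (s ≫ l) (by rw [Category.assoc, hs])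
  have hz₁ : z ≫ p = j := pullback.lift_fst _ _ _
  have hz₂ : z ≫ q = s ≫ l := pullback.lift_snd _ _ _
  let W₂ := pullback q l
  let k₂ : W₂ ⟶ Z := pullback.fst q l
  let q₂ : W₂ ⟶ W := pullback.snd q l
  have sq₂ : IsPullback k₂ q₂ q l := IsPullback.of_hasPullback q l
  have := hasRpush q₂
  have h4 : FUniv q₂ (L ⋙ restrictD l) (T ⋙ restrictD k₂) :=
    FUniv.restrict q sq₂ hL.qcoh (hL.exists_isGE hK hK') hT
  let s₂ : U ⟶ W₂ := pullback.lift z s hz₂
  have hs₂ : s₂ ≫ k₂ = z := pullback.lift_fst _ _ _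
  have hs₂' : s₂ ≫ q₂ = s := pullback.lift_snd _ _ _
  have : IsClosedImmersion (s₂ ≫ q₂) := by rw [hs₂']; infer_instance
  have : IsClosedImmersion s₂ := IsClosedImmersion.of_comp s₂ q₂
  have := hasRpush s₂
  have := hasRpush (s₂ ≫ q₂)
  have h5 : FUniv s₂ (T ⋙ restrictD k₂) (M ⋙ restrictD j) :=
    funiv_section p j k₂ s₂ (by rw [reassoc_of% hs₂, hz₁]) hM.qcoh (hM.exists_isGE hK hK') hT₁
  exact FUniv.of_eq (FUniv.comp' s₂ q₂ h4 h5) hs₂'

end Structure

end Groth.Agent.Dual.H358.FUniv
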