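import Groth.Agent.Dual.H324.PushHom
import Groth.Agent.Dual.H358.FUniv
import Groth.Agent.Dual.H358.Dom
import Groth.Agent.PerfB.BCGeom
import Groth.Agent.PerfC.LpullRestrict

/-!
# Universal traces as push morphisms; a universal trace is an isomorphism over a dense open

* `isTr_of_isUniv`: a universal pair in the sense of `ADualUniv.IsUniv` gives a universal trace;
* `IsTr.cancel`: the push morphism between two universal traces is universal;
* `isUniv_of_isTr`: conversely, the component of a universal trace is universal;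
* `locIso_of_isPullback`, `locIso_of_dense`: over an open over which `g` is an isomorphism, a universal trace over
  `g` is an isomorphism and direct images are computed by restriction.
-/

set_option autoImplicit false
set_option linter.dupNamespace false

universe v₁ u₁ v₂ u₂ u

open CategoryTheory CategoryTheory.Limits AlgebraicGeometry

attribute [local instance] HasDerivedCategory.standard

namespace Groth.Agent.Dual.H358.GoodLoc

open Groth.Agent.PerfB.BCTot Groth.Agent.PerfB.BCTot.Tot Groth.Agent.Dual.H324.PushHom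

section Abstract

variable {𝒮 : Type u₁} [Category.{v₁} 𝒮] {D : 𝒮 → Type u₂} [∀ X, Category.{v₂} (D X)]
  {P : PullData D}

/-- The push morphism between universal traces is universal. -/
theorem IsTr.cancel {Q : ∀ X : 𝒮, D X → Prop} {A' A 𝒲 : Tot P} {t' : PH A' 𝒲} {t : PH A 𝒲}
    (ht' : IsTr Q t') (ht : IsTr Q t) {s : PH A' A} (hs : s.comp t = t') : IsTr Q s := by
  subst hs
  intro A'' hA'' g u hu
  obtain ⟨r, hr1, hr2, hr3⟩ := ht' A'' hA'' g (u.comp t) (by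
    rw [PH.comp_base, PH.comp_base, hu, Category.assoc])
  refine ⟨r, hr1, ?_, ?_⟩
  · refine ht.uniq hA'' ?_ ?_
    · rw [PH.comp_base, hr1, hu]
    · rw [PH.comp_assoc, hr2]
  · intro s' h1 h2
    exact hr3 s' h1 (by rw [← PH.comp_assoc, h2])

lemma isCart_cartLift_comp_ver {X Y : 𝒮} {K L : D Y} (φ : K ⟶ L) (f : X ⟶ Y)
    (h : IsIso ((P.pull f).map φ)) :
    IsCart (cartLift (P := P) ⟨Y, L⟩ f ≫ (ver φ : (⟨Y, L⟩ : Tot P) ⟶ ⟨Y, K⟩)) := by
  unfold cartLift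
  rw [comp_ver']
  change IsIso ((P.pull f).map φ ≫ 𝟙 _)
  infer_instance

/-- The push morphism over the identity attached to a vertical morphism. -/
@[simps] def vPH {X : 𝒮} {M L : D X} (ψ : M ⟶ L) : PH (⟨X, M⟩ : Tot P) (⟨X, L⟩ : Tot P) where
  base := 𝟙 X
  app b x hx := ver ψ ≫ x
  app_base b x hx := by
    rw [Tot.comp_base, hx]
    exact (Category.id_comp _).trans (Category.id_comp _)
  nat b x hx y b' hx' e := (Category.assoc _ _ _).symm

lemma eq_vPH {X : 𝒮} {M L : D X} (s : PH (⟨X, M⟩ : Tot P) (⟨X, L⟩ : Tot P)) (hs : s.base = 𝟙 X) :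
    ∃ ψ : M ⟶ L, s = vPH ψ := by
  obtain ⟨ψ, hψ⟩ := s.exists_ver (N := M) (𝟙 (⟨X, M⟩ : Tot P)) (by
    rw [hs]; exact (Category.comp_id _).symm)
  refine ⟨ψ, PH.ext_of_cocart hs (N := M) (𝟙 _) (isCocart_of_isIso _) (by rw [hs]; rfl) ?_⟩
  intro hx hx'
  rw [hψ]
  exact (Category.comp_id _).symm

variable {X Y : 𝒮} {g : X ⟶ Y} {R : D X ⥤ D Y} (adj : P.pull g ⊣ R)

/-- The push morphism attached to `g_* L ⟶ K`. -/
noncomputable abbrev tr {L : D X} {K : D Y} (φ : R.obj L ⟶ K) :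
    PH (⟨X, L⟩ : Tot P) (⟨Y, K⟩ : Tot P) :=
  PH.ofCocart (A := ⟨Y, K⟩) (cocartLift (P := P) g adj L) (isCocart_cocartLift g adj L) φ

lemma tr_base {L : D X} {K : D Y} (φ : R.obj L ⟶ K) : (tr adj φ).base = g := rfl

lemma tr_app {L : D X} {K : D Y} (φ : R.obj L ⟶ K) (hx) :
    (tr adj φ).app (B := ⟨Y, R.obj L⟩) (𝟙 Y) (cocartLift (P := P) g adj L) hx = ver φ := by
  have h := PH.ofCocart_app (A := ⟨Y, K⟩) (cocartLift (P := P) g adj L) (isCocart_cocartLift g adj L) φ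
    (𝟙 (⟨Y, R.obj L⟩ : Tot P)) (𝟙 Y) rfl (by rw [Category.comp_id]; exact hx)
  refine Eq.trans ?_ (h.trans (Category.comp_id _))
  exact PH.app_congr _ rfl (Category.comp_id _).symm _ _

/-- Composition of a vertical morphism with a push morphism. -/
lemma vPH_comp_app {L M : D X} {K : D Y} (ψ : M ⟶ L) (s : PH (⟨X, L⟩ : Tot P) (⟨Y, K⟩ : Tot P))
    (hs : s.base = g) {φ : R.obj L ⟶ K}
    (hφ : ∀ hx, s.app (B := ⟨Y, R.obj L⟩) (𝟙 Y) (cocartLift (P := P) g adj L) hx = ver φ) (hx) :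
    ((vPH ψ).comp s).app (B := ⟨Y, R.obj M⟩) (𝟙 Y) (cocartLift (P := P) g adj M) hx =
      ver (R.map ψ ≫ φ) := by
  have hx₁ : (cocartLift (P := P) g adj L).base = s.base ≫ 𝟙 Y := by
    rw [hs]; exact (Category.comp_id _).symm
  have hx₂ : (cocartLift (P := P) g adj L ≫
      (ver (R.map ψ) : (⟨Y, R.obj L⟩ : Tot P) ⟶ ⟨Y, R.obj M⟩)).base = s.base ≫ 𝟙 Y := by
    rw [Tot.comp_base, hs]; rfl
  have e1 : ((vPH ψ).comp s).app (B := ⟨Y, R.obj M⟩) (𝟙 Y) (cocartLift (P := P) g adj M) hx =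
      s.app (B := ⟨Y, R.obj M⟩) (𝟙 Y) (cocartLift (P := P) g adj L ≫
        (ver (R.map ψ) : (⟨Y, R.obj L⟩ : Tot P) ⟶ ⟨Y, R.obj M⟩)) hx₂ :=
    s.app_congr rfl (ver_comp_cocartLift g adj ψ) _ _
  refine e1.trans ((s.nat (B := ⟨Y, R.obj L⟩) (B' := ⟨Y, R.obj M⟩) (𝟙 Y)
    (cocartLift (P := P) g adj L) hx₁ _ (𝟙 Y) hx₂ (Category.comp_id _).symm).trans ?_)
  rw [hφ hx₁]
  exact ver_comp_ver _ _

/-- The component of a universal trace is universal in the fibres. -/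
theorem bijective_of_isTr {Q : ∀ X : 𝒮, D X → Prop} {L : D X} {K : D Y}
    {s : PH (⟨X, L⟩ : Tot P) (⟨Y, K⟩ : Tot P)} (hs : s.base = g) (h : IsTr Q s) {φ : R.obj L ⟶ K}
    (hφ : ∀ hx, s.app (B := ⟨Y, R.obj L⟩) (𝟙 Y) (cocartLift (P := P) g adj L) hx = ver φ)
    (M : D X) (hM : Q X M) : Function.Bijective (fun ψ : M ⟶ L => R.map ψ ≫ φ) := by
  have hb : ∀ ψ : M ⟶ L, ((vPH ψ).comp s).base = g := fun ψ => by
    rw [PH.comp_base, hs]; exact Category.id_comp _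
  have hx : ∀ (r : PH (⟨X, M⟩ : Tot P) (⟨Y, K⟩ : Tot P)), r.base = g →
      (cocartLift (P := P) g adj M).base = r.base ≫ 𝟙 Y := fun r hr => by
    rw [hr]; exact (Category.comp_id _).symm
  constructor
  · intro ψ ψ' e
    dsimp only at e
    have h1 : (vPH ψ).comp s = (vPH ψ').comp s := by
      refine PH.ext_of_cocart (by rw [hb, hb]) (cocartLift (P := P) g adj M)
        (isCocart_cocartLift g adj M) (by rw [hb]; rfl) ?_
      intro hx hx'
      rw [vPH_comp_app adj ψ s hs hφ, vPH_comp_app adj ψ' s hs hφ, e]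
    have h2 : (vPH ψ : PH (⟨X, M⟩ : Tot P) (⟨X, L⟩ : Tot P)) = vPH ψ' :=
      h.uniq hM rfl h1
    have hx1 : (𝟙 (⟨X, M⟩ : Tot P) : _ ⟶ _).base = (vPH (P := P) ψ).base ≫ 𝟙 X :=
      (Category.comp_id _).symm
    have hx2 : (𝟙 (⟨X, M⟩ : Tot P) : _ ⟶ _).base = (vPH (P := P) ψ').base ≫ 𝟙 X :=
      (Category.comp_id _).symm
    have h3 : (vPH (P := P) ψ).app (B := ⟨X, M⟩) (𝟙 X) (𝟙 _) hx1 =
        (vPH (P := P) ψ').app (B := ⟨X, M⟩) (𝟙 X) (𝟙 _) hx2 := by
      have : ∀ (a b : PH (⟨X, M⟩ : Tot P) (⟨X, L⟩ : Tot P)) (_ : a = b) (h h'),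
        a.app (B := ⟨X, M⟩) (𝟙 X) (𝟙 _) h = b.app (B := ⟨X, M⟩) (𝟙 X) (𝟙 _) h' := by
        rintro a _ rfl h h'
        rfl
      exact this _ _ h2 _ _
    refine ver_injective (P := P) ?_
    exact (Category.comp_id _).symm.trans (h3.trans (Category.comp_id _))
  · intro ω
    obtain ⟨r, hr1, hr2, -⟩ := h ⟨X, M⟩ hM (𝟙 X) (tr adj ω) (by
      rw [tr_base, hs]; exact (Category.id_comp _).symm)
    obtain ⟨ψ, rfl⟩ := eq_vPH r hr1
    refine ⟨ψ, ver_injective (P := P) ?_⟩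
    dsimp only
    rw [← vPH_comp_app adj ψ s hs hφ (hx _ (hb ψ)), ← tr_app adj ω (hx _ (tr_base adj ω))]
    have : ∀ (a b : PH (⟨X, M⟩ : Tot P) (⟨Y, K⟩ : Tot P)) (_ : a = b) (h h'),
        a.app (B := ⟨Y, R.obj M⟩) (𝟙 Y) (cocartLift (P := P) g adj M) h =
          b.app (B := ⟨Y, R.obj M⟩) (𝟙 Y) (cocartLift (P := P) g adj M) h' := by
      rintro a _ rfl h h'
      rfl
    exact this _ _ hr2 _ _

end Abstract

open Groth.Agent.PerfB.BCMod
  Groth.Agent.PerfB.BCCx Groth.Agent.PerfB.BCDer Groth.Agent.PerfB.BCSch Groth.Agent.PerfB.BCTri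
  Groth.Agent.PerfB.BCShift Groth.Agent.PerfB.BCPush Groth.Agent.PerfB.BCMV
  Groth.Agent.Dcoh.DerHo Groth.Agent.Dcoh.DerComp Groth.Agent.Dcoh.DerSch
open Groth.Agent.Ega1.ADualUniv Groth.Agent.PerfB.BCGeom Groth.Agent.Ega1.ADualRestrict
open Groth.Agent.PerfA.Restrict (restrictD)
open Groth.Agent.Ega1.ADualOpen Groth.Agent.LoccohB.AdStruct

attribute [local instance] Groth.Agent.Dcoh.DerSch.hasRpush Groth.Agent.PerfB.BCSch.hasLpull

variable {X Y Z V : Scheme.{u}}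

/-- The class of objects with quasi-coherent cohomology on Noetherian schemes. -/
def QN (X : Scheme.{u}) (K : DCoh.D X) : Prop := IsNoetherian X ∧ DCoh.IsQCohD K

/-- The adjunction `Lf^* ⊣ Rf_*`. -/
noncomputable abbrev pAdj (f : X ⟶ Y) : dPull.{u}.pull f ⊣ DCoh.Rpush f :=
  Groth.Agent.Dcoh.DerPull.lpullAdj f

/-- Universal pairs give universal traces. -/
theorem isTr_of_isUniv [IsNoetherian X] (f : X ⟶ Y) {L : DCoh.D X} {K : DCoh.D Y}
    {φ : (DCoh.Rpush f).obj L ⟶ K} (h : IsUniv f K L φ) : IsTr QN (tr (P := dPull.{u}) (pAdj f) φ) :=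
  isTr_ofCocart (A := ⟨X, L⟩) (pAdj f) φ (fun M => DCoh.IsQCohD M) h.bij QN
    (fun A' hA' g => by
      have := hA'.1
      exact ⟨_, cocartLift (P := dPull.{u}) g (pAdj g) A'.fib, rfl,
        isCocart_cocartLift _ _ _, S0998.result g _ hA'.2⟩)

/-- The component of a push morphism with base `g`. -/
theorem exists_component {g : X ⟶ Y} {L : DCoh.D X} {K : DCoh.D Y}
    (s : PH (⟨X, L⟩ : Tot dPull.{u}) (⟨Y, K⟩ : Tot dPull.{u})) (hs : s.base = g) :
    ∃ φ : (DCoh.Rpush g).obj L ⟶ K, ∀ hx, s.app (B := ⟨Y, (DCoh.Rpush g).obj L⟩) (𝟙 Y)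
      (cocartLift (P := dPull.{u}) g (pAdj g) L) hx = ver φ := by
  obtain ⟨φ, hφ⟩ := s.exists_ver (N := (DCoh.Rpush g).obj L)
    (cocartLift (P := dPull.{u}) g (pAdj g) L) (by rw [hs]; exact (Category.comp_id _).symm)
  exact ⟨φ, fun _ => hφ⟩

/-- The component of a universal trace is universal. -/
theorem isUniv_of_isTr [IsNoetherian X] {g : X ⟶ Y} {L : DCoh.D X} (hL : DCoh.IsQCohD L)
    {K : DCoh.D Y} {s : PH (⟨X, L⟩ : Tot dPull.{u}) (⟨Y, K⟩ : Tot dPull.{u})} (hs : s.base = g)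
    (h : IsTr QN s) {φ : (DCoh.Rpush g).obj L ⟶ K}
    (hφ : ∀ hx, s.app (B := ⟨Y, (DCoh.Rpush g).obj L⟩) (𝟙 Y)
      (cocartLift (P := dPull.{u}) g (pAdj g) L) hx = ver φ) : IsUniv g K L φ :=
  ⟨hL, fun M hM => bijective_of_isTr (pAdj g) hs h hφ M ⟨inferInstance, hM⟩⟩

lemma isIso_of_isUniv_id {K L : DCoh.D X} (hK : DCoh.IsQCohD K) {τ : (DCoh.Rpush (𝟙 X)).obj L ⟶ K}
    (h : IsUniv (𝟙 X) K L τ) : IsIso τ := by
  let θ : 𝟭 (DCoh.D X) ≅ DCoh.Rpush (𝟙 X) :=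
    (Adjunction.id.ofNatIsoLeft (restrictDId X).symm).rightAdjointUniq
      (Groth.Agent.PerfB.OpenAdj.openAdj (𝟙 X))
  have h1 : IsUniv (𝟙 X) K K (θ.inv.app K) := by
    refine ⟨hK, fun N _ => ?_⟩
    have h1 : (fun g : N ⟶ K => (DCoh.Rpush (𝟙 X)).map g ≫ θ.inv.app K) =
        ((θ.app N).homFromEquiv (Z := K)) := by
      funext g
      exact θ.inv.naturality g
    rw [h1]
    exact Equiv.bijective _
  obtain ⟨e, he, -⟩ := h.exists_iso h1
  rw [← he]
  infer_instance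

/-- A universal trace over `g` proper is an isomorphism over the opens over which `g` is one. -/
theorem locIso_of_isPullback [IsNoetherian Y] {g : X ⟶ Y} [IsProper g] {k' : V ⟶ X} {k : V ⟶ Y}
    [IsOpenImmersion k] (hp : IsPullback k' (𝟙 V) g k) {L : DCoh.D Y} (hL : DCoh.IsQCohD L) (c : ℤ)
    (hLc : L.IsGE c) {L' : DCoh.D X} (hL' : DCoh.IsQCohD L')
    {s : PH (⟨X, L'⟩ : Tot dPull.{u}) (⟨Y, L⟩ : Tot dPull.{u})} (hs : s.base = g) (h : IsTr QN s) :
    LocIso s k' := by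
  have : IsNoetherian X := isNoetherian_of_finiteType g
  have hk' : IsOpenImmersion k' := MorphismProperty.of_isPullback hp.flip inferInstance
  have hw : k' ≫ g = k := by rw [hp.w]; exact Category.id_comp _
  obtain ⟨φ, hφ⟩ := exists_component s hs
  have hu : IsUniv g L L' φ := isUniv_of_isTr hL' hs h hφ
  have hx : (cocartLift (P := dPull.{u}) g (pAdj g) L').base = s.base ≫ 𝟙 Y := by
    rw [hs]; exact (Category.comp_id _).symm
  obtain ⟨β⟩ := exists_rpushRestrictIso g (𝟙 V) k' k hp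
  have h2 := FUniv.isUniv_restrict hp β hL c hLc hu
  have h3 := isIso_of_isUniv_id (PerfA.QCohD.isQCohD_restrictD k hL) h2
  have h4 : IsIso ((restrictD k).map φ) := IsIso.of_isIso_comp_left (β.inv.app L') _
  have h5 : IsIso ((dPull.{u}.pull k).map φ) :=
    (NatIso.isIso_map_iff (Groth.Agent.PerfC.LpullRestrict.restrictIsoLpull k) φ).1 h4
  refine ⟨(DCoh.Rpush g).obj L', cocartLift (P := dPull.{u}) g (pAdj g) L', hx,
    isCocart_cocartLift _ _ _, ?_, ?_⟩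
  · have h6 : ∀ (k₁ : V ⟶ Y) (_ : k₁ = k),
        IsCart (cartLift (P := dPull.{u}) ⟨Y, L⟩ k₁ ≫
          (ver φ : (⟨Y, L⟩ : Tot dPull.{u}) ⟶ ⟨Y, (DCoh.Rpush g).obj L'⟩)) := by
      intro k₁ e
      rw [e]
      exact isCart_cartLift_comp_ver φ k h5
    rw [hφ]
    exact h6 _ (by rw [hs]; exact hw)
  · exact bc_openD hp L' _ _ (cocartLift (P := dPull.{u}) g (pAdj g) L') (𝟙 _)
      (cartLift (P := dPull.{u}) ⟨X, L'⟩ k' ≫ cocartLift (P := dPull.{u}) g (pAdj g) L') rfl rfl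
      (by rw [comp_base]; exact hw) (isCocart_cocartLift _ _ _) (isCocart_of_isIso _)
      (Category.id_comp _)

/-- [GOOD] Over a dense open immersion `k'`, the push morphism between two universal traces (for the same target,
bounded below) is an isomorphism. -/
theorem locIso_of_dense [IsNoetherian Y] {g : X ⟶ Y} [IsProper g] {k' : V ⟶ X} [IsOpenImmersion k']
    [IsDominant k'] {k : V ⟶ Y} [IsOpenImmersion k] (hk : k' ≫ g = k) {L : DCoh.D Y}
    (hL : DCoh.IsQCohD L) (c : ℤ) (hLc : L.IsGE c) {L' : DCoh.D X} (hL' : DCoh.IsQCohD L')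
    {𝒲 : Tot dPull.{u}} {t' : PH (⟨X, L'⟩ : Tot dPull.{u}) 𝒲} {t : PH (⟨Y, L⟩ : Tot dPull.{u}) 𝒲}
    (ht' : IsTr QN t') (ht : IsTr QN t)
    {s : PH (⟨X, L'⟩ : Tot dPull.{u}) (⟨Y, L⟩ : Tot dPull.{u})} (hs : s.base = g)
    (hst : s.comp t = t') : LocIso s k' :=
  locIso_of_isPullback (Groth.Agent.Dual.H310.DomComp.isPullback_of_isDominant k' k g hk) hL c hLc hL'
    hs (IsTr.cancel ht' ht hst)

end Groth.Agent.Dual.H358.GoodLoc
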