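import Groth.Agent.Dual.H358.Dom

/-!
# The Ore condition for proper schemes containing a common open, over a separated target
-/

set_option autoImplicit false

universe u

open CategoryTheory CategoryTheory.Limits AlgebraicGeometry

namespace Groth.Agent.Dual.H358.Dom

variable {S P₁ P₂ P₀ V : Scheme.{u}}

/-- (Ore) The closure of `V` in `P₁ ×_S P₂`; the two maps to the separated `P₀` agree. -/
theorem exists_ore (p₁ : P₁ ⟶ S) (p₂ : P₂ ⟶ S) (p₀ : P₀ ⟶ S) [IsProper p₁] [IsProper p₂] [IsSeparated p₀]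
    (h : P₁ ⟶ P₀) (g : P₂ ⟶ P₀) (hh : h ≫ p₀ = p₁) (hg : g ≫ p₀ = p₂) (k₁ : V ⟶ P₁) [IsImmersion k₁]
    [QuasiCompact k₁] (k₂ : V ⟶ P₂) (e : k₁ ≫ h = k₂ ≫ g) :
    ∃ (Q : Scheme.{u}) (j : V ⟶ Q) (q : Q ⟶ P₁) (r : Q ⟶ P₂), IsOpenImmersion j ∧ QuasiCompact j ∧
      IsSchemeTheoreticallyDominant j ∧ IsDominant j ∧ IsProper q ∧ IsProper r ∧
      j ≫ q = k₁ ∧ j ≫ r = k₂ ∧ q ≫ p₁ = r ≫ p₂ ∧ q ≫ h = r ≫ g := by
  obtain ⟨Q, j, q, r, h1, h2, h3, h4, h5, h6, h7, h8, h9⟩ := exists_closure p₁ p₂ k₁ k₂ (by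
    rw [← hh, ← hg, reassoc_of% e])
  refine ⟨Q, j, q, r, h1, h2, h3, h4, h5, h6, h7, h8, h9, ?_⟩
  refine ext_of_dense j p₀ ?_ ?_
  · rw [Category.assoc, Category.assoc, hh, hg, h9]
  · rw [reassoc_of% h7, reassoc_of% h8, e]

end Groth.Agent.Dual.H358.Dom
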