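import Groth.Agent.Dual.H358.FUniv
import Groth.Prelude.Def_Dual3

/-!
# Composition of upper shriek functors

`main`: `(g ∘ f)^! ≅ f^! ∘ g^!` as functors on `D^+_QCoh(O_Z)`, all three computed through arbitrary
compactifications.  No compactification of `Xbar_f ⟶ Ybar_g` is needed: compare on `Wbar ×_Z Ybar_g`, where
`Wbar` is the given compactification of `g ∘ f`.
-/

set_option autoImplicit false

universe w w' u

open CategoryTheory CategoryTheory.Limits AlgebraicGeometry Pretriangulated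

attribute [local instance] HasDerivedCategory.standard

namespace Groth.Agent.Dual.H358.ShriekComp

open Groth.Agent.Dcoh.DerSch Groth.Agent.Ega1.ADualUniv Groth.Agent.LoccohB
open Groth.Agent.PerfA.Restrict (restrictD)
open Groth.Agent.PerfA.PerfLocal (restrictDComp restrictDCongr)
open Groth.Agent.LoccohB.AdStruct (restrictDId isNoetherian_of_finiteType)
open Groth.Agent.Dual.H358.FUniv

/-- The functor-level comparison behind `(g ∘ f)^! ≅ f^! ∘ g^!`. -/
theorem nonempty_iso {C : Type w} [Category.{w'} C] {X Y Z Xf Yg Wb : Scheme.{u}} [IsNoetherian Z]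
    (jf : X ⟶ Xf) [IsOpenImmersion jf] (f' : Xf ⟶ Y) [IsProper f'] (jg : Y ⟶ Yg)
    [IsOpenImmersion jg] (g' : Yg ⟶ Z) [IsProper g'] (jh : X ⟶ Wb) [IsOpenImmersion jh]
    (h' : Wb ⟶ Z) [IsProper h'] (hw : jh ≫ h' = jf ≫ f' ≫ jg ≫ g')
    [DCoh.HasRpush f'] [DCoh.HasRpush g'] [DCoh.HasRpush h']
    {K : C ⥤ DCoh.D Z} (hK : ∀ c, DCoh.IsQCohD (K.obj c)) (hK' : ∀ c, ∃ n : ℤ, (K.obj c).IsGE n)
    {M : C ⥤ DCoh.D Wb} (hM : FUniv h' K M) {B : C ⥤ DCoh.D Yg} (hB : FUniv g' K B)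
    {A : C ⥤ DCoh.D Xf} (hA : FUniv f' (B ⋙ restrictD jg) A) :
    Nonempty (M ⋙ restrictD jh ≅ A ⋙ restrictD jf) := by
  have hWb : IsNoetherian Wb := isNoetherian_of_finiteType h'
  have hYg : IsNoetherian Yg := isNoetherian_of_finiteType g'
  have hY : IsNoetherian Y := isNoetherian_of_finiteType jg
  have hXf : IsNoetherian Xf := isNoetherian_of_finiteType f'
  have hX : IsNoetherian X := isNoetherian_of_finiteType jf
  -- the product `Q = Wb ×_Z Yg`
  let Q := pullback h' g'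
  let p : Q ⟶ Wb := pullback.fst h' g'
  let q : Q ⟶ Yg := pullback.snd h' g'
  have hpq : p ≫ h' = q ≫ g' := pullback.condition
  have hQ : IsNoetherian Q := isNoetherian_of_finiteType p
  have := hasRpush p
  have := hasRpush q
  have := hasRpush (p ≫ h')
  have := hasRpush (q ≫ g')
  obtain ⟨T, hT⟩ := exists_funiv q B hB.qcoh
  obtain ⟨T', hT'⟩ := exists_funiv p M hM.qcoh
  obtain ⟨eT⟩ := (FUniv.of_eq (FUniv.comp' p h' hM hT') hpq).unique (FUniv.comp' q g' hB hT)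
  have hT₁ : FUniv p M T := hT'.of_iso_left eT
  have hB' : ∀ c, ∃ n : ℤ, (B.obj c).IsGE n := hB.exists_isGE hK hK'
  have hM' : ∀ c, ∃ n : ℤ, (M.obj c).IsGE n := hM.exists_isGE hK hK'
  -- its part over `Y`
  let QY := pullback q jg
  let k : QY ⟶ Q := pullback.fst q jg
  let qY : QY ⟶ Y := pullback.snd q jg
  have sqY : IsPullback k qY q jg := IsPullback.of_hasPullback q jg
  have hQY : IsNoetherian QY := isNoetherian_of_finiteType k
  have := hasRpush qY
  have hTY : FUniv qY (B ⋙ restrictD jg) (T ⋙ restrictD k) :=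
    FUniv.restrict q sqY hB.qcoh hB' hT
  have hBYq : ∀ c, DCoh.IsQCohD ((B ⋙ restrictD jg).obj c) := fun c =>
    PerfA.QCohD.isQCohD_restrictD jg (hB.qcoh c)
  have hBY' : ∀ c, ∃ n : ℤ, ((B ⋙ restrictD jg).obj c).IsGE n := fun c => by
    obtain ⟨n, hn⟩ := hB' c
    exact ⟨n, PerfA.ExactD.isGE_map _ _ _⟩
  -- the point `X ⟶ QY`
  let x₀ : X ⟶ Q := pullback.lift jh (jf ≫ f' ≫ jg) (by simpa using hw)
  have hx₀ : x₀ ≫ p = jh := pullback.lift_fst _ _ _
  have hx₀' : x₀ ≫ q = jf ≫ f' ≫ jg := pullback.lift_snd _ _ _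
  let x : X ⟶ QY := pullback.lift x₀ (jf ≫ f') (by simpa using hx₀')
  have hx : x ≫ k = x₀ := pullback.lift_fst _ _ _
  have hx' : x ≫ qY = jf ≫ f' := pullback.lift_snd _ _ _
  -- the open `W ⊆ QY`, preimage of `X ⊆ Wb`
  let W := pullback (k ≫ p) jh
  let l : W ⟶ QY := pullback.fst (k ≫ p) jh
  let r : W ⟶ X := pullback.snd (k ≫ p) jh
  have hlr : l ≫ k ≫ p = r ≫ jh := pullback.condition
  let s : X ⟶ W := pullback.lift x (𝟙 X) (by
    rw [Category.id_comp, ← Category.assoc, hx, hx₀])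
  have hs : s ≫ l = x := pullback.lift_fst _ _ _
  have hs' : s ≫ r = 𝟙 X := pullback.lift_snd _ _ _
  have : IsSeparated r := inferInstance
  have : IsClosedImmersion (s ≫ r) := by rw [hs']; infer_instance
  have : IsClosedImmersion s := IsClosedImmersion.of_comp s r
  have := hasRpush s
  have h1 : FUniv s ((T ⋙ restrictD k) ⋙ restrictD l) (A ⋙ restrictD jf) :=
    FUniv.structure f' qY jf l s (by rw [reassoc_of% hs, hx']) hBYq hBY' hA hTY
  have h2 : FUniv s (T ⋙ restrictD (l ≫ k)) (M ⋙ restrictD jh) :=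
    funiv_section p jh (l ≫ k) s (by rw [Category.assoc, reassoc_of% hs, reassoc_of% hx, hx₀]) hM.qcoh
      hM' hT₁
  exact h2.unique (h1.of_iso_right (Functor.isoWhiskerLeft T (restrictDComp l k)))

variable {S X Y Z : Scheme.{u}} [IsNoetherian S] (p : X ⟶ S) (q : Y ⟶ S) (r : Z ⟶ S) [Dual3.IsSepFT p] [Dual3.IsSepFT q] [Dual3.IsSepFT r] (f : X ⟶ Y) (g : Y ⟶ Z)
  (cf : DEt.Compactification f) (cg : DEt.Compactification g) (cgf : DEt.Compactification (f ≫ g)) [DCoh.HasRpush cf.fbar] [DCoh.HasRpush cg.fbar] [DCoh.HasRpush cgf.fbar] (hf : DCoh.RpushPreservesQCoh cf.fbar) (hg : DCoh.RpushPreservesQCoh cg.fbar) (hgf : DCoh.RpushPreservesQCoh cgf.fbar) (a : DCoh.DQCoh Y ⥤ DCoh.DQCoh cf.Xbar) (b : DCoh.DQCoh Z ⥤ DCoh.DQCoh cg.Xbar) (c : DCoh.DQCoh Z ⥤ DCoh.DQCoh cgf.Xbar) (adjf : DCoh.RpushQ cf.fbar hf ⊣ a) (adjg : DCoh.RpushQ cg.fbar hg ⊣ b) (adjgf : DCoh.RpushQ cgf.fbar hgf ⊣ c) [∀ (U V : Scheme.{u}) (j : U ⟶ V) [IsOpenImmersion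 j], PreservesFiniteLimits (Scheme.Modules.restrictFunctor j)]
  (hres : ∀ K : DCoh.D cg.Xbar, DCoh.IsQCohD K → DCoh.IsQCohD ((DCoh.restrictD cg.j).obj K))

include p q r adjf adjg adjgf in
theorem main : Nonempty (Dual3.bddι Z ⋙ Dual3.shriekC cgf c ≅ Dual3.bddι Z ⋙ ObjectProperty.lift DCoh.IsQCohD (Dual3.shriekC cg b) (fun K => hres (b.obj K).obj (b.obj K).property) ⋙ Dual3.shriekC cf a) := by
  have hZ : IsNoetherian Z := isNoetherian_of_finiteType r
  let K : (Dual3.IsBddBelowQ Z).FullSubcategory ⥤ DCoh.D Z := Dual3.bddι Z ⋙ ObjectProperty.ι _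
  have hM := funiv_of_adj (h := hgf) adjgf (Dual3.bddι Z)
  have hB := funiv_of_adj (h := hg) adjg (Dual3.bddι Z)
  have hA := funiv_of_adj (h := hf) adjf (Dual3.bddι Z ⋙ ObjectProperty.lift DCoh.IsQCohD (Dual3.shriekC cg b)
    (fun K => hres (b.obj K).obj (b.obj K).property))
  exact nonempty_iso cf.j cf.fbar cg.j cg.fbar cgf.j cgf.fbar
    (by rw [cgf.fac, cg.fac, ← Category.assoc, cf.fac]) (K := K)
    (fun c => c.obj.property) (fun c => c.property) hM hB hA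

end Groth.Agent.Dual.H358.ShriekComp
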